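import Groth.Agent.Fixpt.H313.Setup
import Groth.Agent.Fixpt.H313.FormPull
import Groth.Agent.Fixpt.H12.Hinj
import Groth.Agent.Dual.H323.PerfPush

/-!
# The fixed point formula in `D(O_X)` up to the local constants

* `Duality f ω tr`: the hypotheses on `(ω, tr)`;
* `formula`: there are constants `c_s ∈ k`, one for each fixed point `s`, such that for every dualizable `E` and
  `u : Lφ^* E ⟶ E`, `Σ_j Tr (α_j ≫ Psi u ≫ π_j) = Σ_s c_s Tr (u (s))`.
-/

set_option autoImplicit false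

open CategoryTheory Limits MonoidalCategory AlgebraicGeometry
open CategoryTheory.Functor.LaxMonoidal CategoryTheory.Functor.OplaxMonoidal

universe u

namespace Groth.Agent.Fixpt.H313.Formula

attribute [local instance] HasDerivedCategory.standard

open Groth.Agent.Dcoh Groth.Agent.PerfB.BCTot Groth.Agent.PerfB.BCSch PullMon SqPull FixPull
open scoped Groth.Agent.Dcoh.MonCat Groth.Agent.Dcoh.ModD Groth.Agent.Dcoh.MonPull
open Groth.Agent.PerfB.BCShift (lAdj lpull_isTriangulated lpullCommShift)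
open Groth.Agent.Fixpt.H313.Square Groth.Agent.Fixpt.H313.IntSq Groth.Agent.Fixpt.H313.Trace
open Groth.Agent.Fixpt.H313.Fix Groth.Agent.Fixpt.H313.LocComp Groth.Agent.Fixpt.H313.GlobTr
open Groth.Agent.Fixpt.H313.AbsMain Groth.Agent.Ega1.ADualUniv
open BrD AddD DX Setup
open scoped BrD AddD DX

section Add

variable {X Y : Scheme.{u}} (f : X ⟶ Y)

lemma additive_pull : (dPull.pull f).Additive := by
  let _ := lpullCommShift f
  have : (DCoh.Lpull f).IsTriangulated := lpull_isTriangulated f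
  exact (inferInstance : (DCoh.Lpull f).Additive)

lemma additive_push : (DCoh.Rpush f).Additive := by
  have : (DCoh.Lpull f).Additive := additive_pull f
  exact (lAdj f).right_adjoint_additive

end Add

section

variable {S X : Scheme.{u}} (f : X ⟶ S) (ω : DCoh.D X) (tr : (DCoh.Rpush f).obj ω ⟶ 𝟙_ (DCoh.D S))
  [IsIso (bcX f ω)]

lemma intAdd : IntAdd (intData f ω tr) where
  F := additive_pull f
  D := additive_pull (pullback.diagonal f)
  R := additive_push f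
  R₁ := additive_push (pullback.fst f f)

/-- The hypotheses on the dualizing pair `(ω, tr)`. -/
structure Duality : Prop where
  univ : IsUniv f (𝟙_ (DCoh.D S)) ω tr
  univ₁ : IsUniv (pullback.fst f f) (𝟙_ (DCoh.D X)) ((dPull.pull (pullback.snd f f)).obj ω) (tr₁ f ω tr)

variable {f ω tr}

lemma detects (h : Duality f ω tr) {N : DCoh.D (pullback f f)} (hN : DCoh.IsQCohD N) :
    Detects (intData f ω tr) N := by
  intro w hw
  have := additive_push (pullback.fst f f)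
  have h0 : (DCoh.Rpush (pullback.fst f f)).map
    (0 : N ⟶ (dPull.pull (pullback.snd f f)).obj ω) = 0 := Functor.map_zero _ _ _
  exact h.univ₁.hom_ext hN (hw.trans ((congrArg (· ≫ tr₁ f ω tr) h0).trans zero_comp).symm)

lemma lifts (h : Duality f ω tr) {N : DCoh.D X} (hN : DCoh.IsQCohD N) : Lifts (intData f ω tr) N :=
  fun g => h.univ.exists_lift hN g

end

section Main

variable {k : Type u} [Field k] {X : Scheme.{u}} {f : X ⟶ Spec (CommRingCat.of k)}
  {ω : DCoh.D X} {tr : (DCoh.Rpush f).obj ω ⟶ 𝟙_ (DCoh.D (Spec (CommRingCat.of k)))} [IsIso (bcX f ω)]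
  {φ : X ⟶ X} {hφ : φ ≫ f = f}
  {θ : (DCoh.Rpush (H12.RegLoc.graph f φ hφ)).obj (𝟙_ (DCoh.D X)) ⟶
    (dPull.pull (pullback.snd f f)).obj ω}

/-- The local components detect the sections of `LΔ^* Rγ_* O_X`. -/
theorem hinj [IsAlgClosed k] [Smooth f] [IsSeparated f] (h : H12.GraphTor.Hyp f φ)
    (hk : 𝟙 (𝟙_ (DCoh.D (Spec (CommRingCat.of k)))) ≠ 0)
    (hθ : IsTheta f ω tr φ hφ θ)
    (r : 𝟙_ (DCoh.D X) ⟶ (dPull.pull (pullback.diagonal f)).obj
      ((DCoh.Rpush (H12.RegLoc.graph f φ hφ)).obj (𝟙_ (DCoh.D X))))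
    (hr : ∀ (s : {s : Spec (CommRingCat.of k) ⟶ X // s ≫ f = 𝟙 _ ∧ s ≫ φ = s}),
      (xD hθ s.2.1 s.2.2).comp r = 0) : r = 0 := by
  refine FormPull.hinj_of isMonPull (gr f φ hφ) (intData f ω tr)
    (DCoh.Rpush (H12.RegLoc.graph f φ hφ)) (lAdj (H12.RegLoc.graph f φ hφ)) θ hθ
    (fun s : {s : Spec (CommRingCat.of k) ⟶ X // s ≫ f = 𝟙 _ ∧ s ≫ φ = s} => s.1)
    (fun s => fPt s.2.1 s.2.2) (fun s => DCoh.Rpush s.1) (fun s => lAdj s.1)
    (fun s => additive_pull s.1) hk (fun m hm r hr => ?_) r hr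
  exact H12.Hinj.eq_zero hφ h
    (fun s : {s : Spec (CommRingCat.of k) ⟶ X // s ≫ f = 𝟙 _ ∧ s ≫ φ = s} => s.1)
    (fun s => s.2.1) (fun s => s.2.2) (fun t ht htφ => ⟨⟨t, ht, htφ⟩, rfl⟩) m hm r hr

/-- **The fixed point formula up to the local constants.** -/
theorem formula [IsAlgClosed k] [Smooth f] [IsSeparated f] (h : H12.GraphTor.Hyp f φ)
    (hθ : IsTheta f ω tr φ hφ θ) (hd : Duality f ω tr)
    (hbc : ∀ E : DCoh.D X, DCoh.IsQCohD E → IsIso (bcX f E))
    (κ : k ≃+* End (𝟙_ (DCoh.D (Spec (CommRingCat.of k))))) :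
    ∃ c : {s : Spec (CommRingCat.of k) ⟶ X // s ≫ f = 𝟙 _ ∧ s ≫ φ = s} → k,
    ∀ (E E' : DCoh.D X) [ExactPairing E E'] (_ : DCoh.IsQCohD E) (_ : DCoh.IsQCohD E')
      (dec : Decomp ((DCoh.Rpush f).obj E)) (_ : ∀ j, DCoh.IsQCohD (dec.T' j))
      (u : (dPull.pull φ).obj E ⟶ E),
      letI := h.fin
      letI := Fintype.ofFinite {s : Spec (CommRingCat.of k) ⟶ X // s ≫ f = 𝟙 _ ∧ s ≫ φ = s}
      ∑ j, κ.symm (Tr (dec.T' j) (dec.α j ≫ FormPull.psiP dPull hφ (lAdj f) u ≫ dec.π j)) =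
        ∑ s, c s * κ.symm (letI := Proj.mapP (dPull.pull s.1) E E';
          Tr ((dPull.pull s.1).obj E') (FormPull.uxP dPull s.2.2 u)) := by
  have hfin := h.fin
  let _ := Fintype.ofFinite {s : Spec (CommRingCat.of k) ⟶ X // s ≫ f = 𝟙 _ ∧ s ≫ φ = s}
  have hk : 𝟙 (𝟙_ (DCoh.D (Spec (CommRingCat.of k)))) ≠ 0 := by
    intro h0
    exact one_ne_zero (κ.injective ((map_one κ).trans (h0.trans (map_zero κ).symm)))
  obtain ⟨c, hc⟩ := FormPull.formula isMonPull (gr f φ hφ) (intData f ω tr)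
    (DCoh.Rpush (H12.RegLoc.graph f φ hφ)) (lAdj (H12.RegLoc.graph f φ hφ)) θ hθ κ (intAdd f ω tr)
    (fun s : {s : Spec (CommRingCat.of k) ⟶ X // s ≫ f = 𝟙 _ ∧ s ≫ φ = s} => s.1)
    (fun s => fPt s.2.1 s.2.2) (fun s => additive_pull s.1) (hinj h hk hθ)
  refine ⟨c, fun E E' _ hE hE' dec hT u => ?_⟩
  exact hc E E' (hbc E hE) dec
    (detects hd (Dual.H323.PerfPush.isQCohD_tensor (S1054.result _ _ hE') (S1054.result _ _ hE)))
    (fun j => lifts hd (Dual.H323.PerfPush.isQCohD_tensor (S1054.result _ _ (hT j)) hE)) u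

end Main

end Groth.Agent.Fixpt.H313.Formula
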