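import Groth.Agent.Fixpt.H313.DX
import Groth.Agent.Fixpt.H12.RegLoc
import Groth.Agent.PerfB.BCShift

/-!
# The data of the abstract fixed point formula for `f : X ⟶ Spec k` and an endomorphism `φ` of `X` over `k`

* `dg f : Diag f`: the square `X ×_k X` with its diagonal; `gr f φ hφ : Graph (dg f) φ`: the graph;
* `bcX f E : Lf^* Rf_* E ⟶ Rp₁_* Lp₂^* E`: base change;
* `tr₁ f ω tr : Rp₁_* Lp₂^* ω ⟶ O_X`: the base change of `tr : Rf_* ω ⟶ O`;
* `intData f ω tr : IntData (sq isMonPull (dg f))`;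
* `fixD`: the `FixData`; `xD`: the `XData`.
-/

set_option autoImplicit false

open CategoryTheory Limits MonoidalCategory AlgebraicGeometry
open CategoryTheory.Functor.LaxMonoidal CategoryTheory.Functor.OplaxMonoidal

universe u

namespace Groth.Agent.Fixpt.H313.Setup

attribute [local instance] HasDerivedCategory.standard

open Groth.Agent.Dcoh Groth.Agent.PerfB.BCTot Groth.Agent.PerfB.BCSch PullMon SqPull FixPull
open scoped Groth.Agent.Dcoh.MonCat Groth.Agent.Dcoh.ModD Groth.Agent.Dcoh.MonPull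
open Groth.Agent.PerfB.BCShift (lAdj)
open Groth.Agent.Fixpt.H313.Square Groth.Agent.Fixpt.H313.IntSq Groth.Agent.Fixpt.H313.Trace
open Groth.Agent.Fixpt.H313.Fix Groth.Agent.Fixpt.H313.LocComp Groth.Agent.Fixpt.H313.GlobTr
open Groth.Agent.Fixpt.H313.AbsMain
open BrD AddD DX
open scoped BrD AddD DX

variable {S X : Scheme.{u}} (f : X ⟶ S)

/-- `X ×_S X` with its diagonal. -/
noncomputable abbrev dg : Diag f where
  Z := pullback f f
  p₁ := pullback.fst f f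
  p₂ := pullback.snd f f
  w := pullback.condition
  Δ := pullback.diagonal f
  Δ₁ := pullback.diagonal_fst f
  Δ₂ := pullback.diagonal_snd f

/-- The base change morphism `Lf^* Rf_* E ⟶ Rp₁_* Lp₂^* E`. -/
noncomputable def bcX (E : DCoh.D X) : (dPull.pull f).obj ((DCoh.Rpush f).obj E) ⟶
    (DCoh.Rpush (pullback.fst f f)).obj ((dPull.pull (pullback.snd f f)).obj E) :=
  (lAdj (pullback.fst f f)).homEquiv _ _
    ((sw dPull (pullback.fst f f) (pullback.snd f f) f f pullback.condition ((DCoh.Rpush f).obj E)).hom ≫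
      (dPull.pull (pullback.snd f f)).map ((lAdj f).counit.app E))

variable (ω : DCoh.D X) (tr : (DCoh.Rpush f).obj ω ⟶ 𝟙_ (DCoh.D S))

/-- The base change of the trace. -/
noncomputable def tr₁ [IsIso (bcX f ω)] :
    (DCoh.Rpush (pullback.fst f f)).obj ((dPull.pull (pullback.snd f f)).obj ω) ⟶ 𝟙_ (DCoh.D X) :=
  inv (bcX f ω) ≫ (dPull.pull f).map tr ≫ η (dPull.pull f)

/-- The integration data. -/
noncomputable def intData [IsIso (bcX f ω)] : IntData (sq isMonPull (dg f)) where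
  R := DCoh.Rpush f
  adj := lAdj f
  R₁ := DCoh.Rpush (pullback.fst f f)
  adj₁ := lAdj (pullback.fst f f)
  ω := ω
  tr := tr
  tr₁ := tr₁ f ω tr
  tr_comp := IsIso.hom_inv_id_assoc (bcX f ω) _

lemma bcE_intData [IsIso (bcX f ω)] (E : DCoh.D X) : bcE (intData f ω tr) E = bcX f E := rfl

section Fix

variable {k : Type u} [Field k] {X : Scheme.{u}} (f : X ⟶ Spec (CommRingCat.of k))
  (ω : DCoh.D X) (tr : (DCoh.Rpush f).obj ω ⟶ 𝟙_ (DCoh.D (Spec (CommRingCat.of k)))) [IsIso (bcX f ω)]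
  (φ : X ⟶ X) (hφ : φ ≫ f = f)

/-- The graph. -/
noncomputable abbrev gr : Graph (dg f) φ where
  w := hφ
  γ := H12.RegLoc.graph f φ hφ
  γ₁ := H12.RegLoc.graph_fst f φ hφ
  γ₂ := H12.RegLoc.graph_snd f φ hφ

/-- The condition on `θ : Rγ_* O_X ⟶ Lp₂^* ω`: `Rp₁_* θ` is inverse to `O_X ⟶ Rp₁_* Rγ_* O_X`. -/
def IsTheta (θ : (DCoh.Rpush (H12.RegLoc.graph f φ hφ)).obj (𝟙_ (DCoh.D X)) ⟶
    (dPull.pull (pullback.snd f f)).obj ω) : Prop :=
  (intData f ω tr).int₁ ((lAdj (H12.RegLoc.graph f φ hφ)).homEquiv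
    ((dPull.pull (pullback.fst f f)).obj (𝟙_ (DCoh.D X))) (𝟙_ (DCoh.D X))
      (retr dPull (H12.RegLoc.graph f φ hφ) (pullback.fst f f) (H12.RegLoc.graph_fst f φ hφ)
        (𝟙_ (DCoh.D X))).hom ≫ θ) = 𝟙 (𝟙_ (DCoh.D X))

variable {f ω tr φ hφ}
variable {θ : (DCoh.Rpush (H12.RegLoc.graph f φ hφ)).obj (𝟙_ (DCoh.D X)) ⟶
    (dPull.pull (pullback.snd f f)).obj ω}

/-- The graph data. -/
noncomputable def fixD (hθ : IsTheta f ω tr φ hφ θ) : FixData (intData f ω tr) (dPull.pull φ)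
    (dPull.pull (H12.RegLoc.graph f φ hφ)) :=
  fixData isMonPull (gr f φ hφ) (intData f ω tr) (DCoh.Rpush (H12.RegLoc.graph f φ hφ))
    (lAdj (H12.RegLoc.graph f φ hφ)) θ hθ

lemma fPt {s : Spec (CommRingCat.of k) ⟶ X} (hs : s ≫ f = 𝟙 _) (hsφ : s ≫ φ = s) : FPt (gr f φ hφ) s where
  sec := hs
  fix := hsφ
  e := H12.RegLoc.comp_graph f s φ hφ hsφ

/-- The fixed point data. -/
noncomputable def xD (hθ : IsTheta f ω tr φ hφ θ) {s : Spec (CommRingCat.of k) ⟶ X} (hs : s ≫ f = 𝟙 _)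
    (hsφ : s ≫ φ = s) : XData (fixD hθ) (dPull.pull s) :=
  xData isMonPull (fPt hs hsφ) (intData f ω tr) (DCoh.Rpush (H12.RegLoc.graph f φ hφ))
    (lAdj (H12.RegLoc.graph f φ hφ)) θ hθ

end Fix

end Groth.Agent.Fixpt.H313.Setup
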